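import Cfsg.Agent.SeenOnce.Field

/-!
# An equivariant `p`-group with small centralisers

If an automorphism of a `p`-group `S` (`p` odd) induces a Singer cycle on `S / S'`, and every element
outside `S'` has centraliser of order at most `|S : S'|`, then every element outside `S'` has order `p`.
-/

set_option autoImplicit false
set_option linter.style.haveILetI false

namespace Cfsg.Agent.SeenOnce

open Subgroup
open scoped commutatorElement

universe u v

variable {S : Type v} [Group S]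

theorem card_centralizer_quotient_le [Finite S] (N : Subgroup S) [N.Normal] (x : S) :
    Nat.card (centralizer ({QuotientGroup.mk' N x} : Set (S ⧸ N))) ≤
      Nat.card (centralizer ({x} : Set S)) := by
  classical
  set C := centralizer ({x} : Set S) with hC
  set Cb := centralizer ({QuotientGroup.mk' N x} : Set (S ⧸ N)) with hCb
  set M := Cb.comap (QuotientGroup.mk' N) with hM
  have hmem : ∀ y ∈ M, y * x * y⁻¹ * x⁻¹ ∈ N := by
    intro y hy
    rw [hM, hCb, mem_comap, mem_centralizer_singleton_iff] at hy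
    rw [← QuotientGroup.eq_one_iff, QuotientGroup.mk_mul, QuotientGroup.mk_mul, QuotientGroup.mk_mul,
      QuotientGroup.mk_inv, QuotientGroup.mk_inv]
    simp only [QuotientGroup.mk'_apply] at hy
    rw [hy]
    group
  let φ : M ⧸ C.subgroupOf M → N :=
    fun q => ⟨_, hmem _ q.out.2⟩
  have hφ : Function.Injective φ := by
    intro a b hab
    rw [← a.out_eq', ← b.out_eq', QuotientGroup.eq, mem_subgroupOf]
    refine mem_centralizer_singleton_iff.2 ?_
    rw [Subgroup.coe_mul, Subgroup.coe_inv]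
    have h : (a.out : S) * x * (a.out : S)⁻¹ = (b.out : S) * x * (b.out : S)⁻¹ :=
      mul_right_cancel (congrArg Subtype.val hab)
    calc (a.out : S)⁻¹ * b.out * x = (a.out : S)⁻¹ * ((b.out : S) * x * (b.out : S)⁻¹) * b.out := by
          group
      _ = x * ((a.out : S)⁻¹ * b.out) := by rw [← h]; group
  have hCM : C ≤ M := by
    intro y hy
    rw [hM, hCb, mem_comap, mem_centralizer_singleton_iff, ← map_mul, ← map_mul,
      mem_centralizer_singleton_iff.1 hy]
  have h1 : Nat.card (C.subgroupOf M) = Nat.card C :=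
    Nat.card_congr (subgroupOfEquivOfLe hCM).toEquiv
  have h2 : Nat.card (M ⧸ C.subgroupOf M) ≤ Nat.card N := Nat.card_le_card_of_injective φ hφ
  have h3 := card_eq_card_quotient_mul_card_subgroup (C.subgroupOf M)
  have h4 : M.index = Cb.index :=
    index_comap_of_surjective _ (QuotientGroup.mk'_surjective N)
  have h5 := M.card_mul_index
  have h6 := Cb.card_mul_index
  have h7 := card_eq_card_quotient_mul_card_subgroup N
  rw [h4, h7, ← h6] at h5
  have h8 : Nat.card M = Nat.card Cb * Nat.card N :=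
    Nat.eq_of_mul_eq_mul_right (Nat.pos_of_ne_zero (index_ne_zero_of_finite (H := Cb))) (by rw [h5]; ring)
  rw [h1] at h3
  have h9 : 0 < Nat.card N := Nat.card_pos
  nlinarith

theorem eq_bot_of_le_commutator [hS : Group.IsNilpotent S] (N : Subgroup S)
    (h : N ≤ ⁅N, (⊤ : Subgroup S)⁆) : N = ⊥ := by
  obtain ⟨k, hk⟩ := Subgroup.nilpotent_iff_lowerCentralSeries.1 hS
  rw [eq_bot_iff, ← hk]
  clear hk
  induction k with
  | zero => exact le_top
  | succ k ih => exact h.trans (commutator_mono ih le_rfl)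

variable {F : Type u} [Field F] [Fintype F] {p n : ℕ} [Fact p.Prime] [CharP F p]

/-- Elements outside the derived subgroup have order `p`. -/
theorem pow_eq_one_of_small_centralizer [Finite S] (hS : IsPGroup p S) (hp2 : p ≠ 2)
    (hcard : Fintype.card F = p ^ n) {μ : F} (hμ : orderOf μ = p ^ n - 1) (τ : MulAut S) (e : S → F)
    (he : ∀ x y, e (x * y) = e x + e y) (hsurj : Function.Surjective e)
    (hker : ∀ x, e x = 0 ↔ x ∈ commutator S) (hτ : ∀ x, e (τ x) = μ * e x)
    (hC : ∀ x, e x ≠ 0 → Nat.card (centralizer ({x} : Set S)) ≤ p ^ n) (x : S) (hx : e x ≠ 0) :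
    x ^ p = 1 := by
  classical
  haveI := hS.isNilpotent
  have hp3 : 3 ≤ p := by
    have := (Fact.out : p.Prime).two_le
    omega
  set q1 := Fintype.card F - 1 with hq1
  have hμq : μ ^ q1 = 1 := by rw [hq1, hcard, ← hμ, pow_orderOf_eq_one]
  set D : Subgroup S := commutator S with hD
  set E : Subgroup S := ⁅D, (⊤ : Subgroup S)⁆ with hE
  set E' : Subgroup S := ⁅E, (⊤ : Subgroup S)⁆ with hE'
  haveI : D.Normal := inferInstance
  haveI : E.Normal := inferInstance
  haveI : E'.Normal := inferInstance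
  have hED : E ≤ D := commutator_le_left D ⊤
  have hEE : E' ≤ E := commutator_le_left E ⊤
  have hmapD : D.map τ.toMonoidHom ≤ D := by
    rw [hD, _root_.commutator_def, map_commutator]
    exact commutator_mono le_top le_top
  have hmapE : E.map τ.toMonoidHom ≤ E := by
    rw [hE, map_commutator]
    exact commutator_mono hmapD le_top
  have hmapE' : E'.map τ.toMonoidHom ≤ E' := by
    rw [hE', map_commutator]
    exact commutator_mono hmapE le_top
  have heτ : ∀ (k : ℕ) (y : S), e ((⇑τ)^[k] y) = μ ^ k * e y := by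
    intro k y
    induction k with
    | zero => simp
    | succ k ih => rw [Function.iterate_succ_apply', hτ, ih, pow_succ', mul_assoc]
  have he1 : e 1 = 0 := (hker 1).2 (one_mem _)
  have hepow : ∀ (k : ℕ) (y : S), e (y ^ k) = (k : F) * e y := by
    intro k y
    induction k with
    | zero => simp [he1]
    | succ k ih => rw [pow_succ, he, ih, Nat.cast_succ, add_mul, one_mul]
  have hediff : ∀ y z, e y = e z → y⁻¹ * z ∈ D := by
    intro y z h
    rw [hD, ← hker, he]
    have h0 := he y⁻¹ y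
    rw [inv_mul_cancel, he1, h] at h0
    exact h0.symm
  obtain ⟨r, hr⟩ := hsurj.hasRightInverse
  have hout : ∀ y, e y ≠ 0 → y ∉ D := fun y hy h => hy ((hker y).2 h)
  -- modulo `E`
  set π := QuotientGroup.mk' E with hπ
  have hcD : ∀ d ∈ D, ∀ y, Commute (π d) (π y) := by
    intro d hd y
    rw [commute_iff_eq, ← commutatorElement_eq_one_iff_mul_comm, ← map_commutatorElement, hπ,
      QuotientGroup.mk'_apply, QuotientGroup.eq_one_iff]
    exact commutator_mem_commutator hd (mem_top y)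
  set Db := D.map π with hDb
  letI : CommGroup Db :=
    { (inferInstance : Group Db) with
      mul_comm := by
        rintro ⟨_, a, ha, rfl⟩ ⟨_, b, -, rfl⟩
        exact Subtype.ext (hcD a ha b).eq }
  have hcongr : ∀ y y' z z', e y = e y' → e z = e z' → ⁅π y, π z⁆ = ⁅π y', π z'⁆ := by
    intro y y' z z' h h'
    have hy := hediff _ _ h
    have hz := hediff _ _ h'
    rw [show y' = y * (y⁻¹ * y') by group, show z' = z * (z⁻¹ * z') by group, map_mul π y,
      map_mul π z]
    generalize hd : π (y⁻¹ * y') = d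
    generalize hd' : π (z⁻¹ * z') = d'
    have cd : ∀ w, d * π w = π w * d := fun w => hd ▸ (hcD _ hy w).eq
    have cd' : ∀ w, d' * π w = π w * d' := fun w => hd' ▸ (hcD _ hz w).eq
    have cdd : d * d' = d' * d := hd' ▸ cd _
    simp only [commutatorElement_def]
    symm
    calc π y * d * (π z * d') * (π y * d)⁻¹ * (π z * d')⁻¹
        = π y * (d * π z) * d' * (d⁻¹ * (π y)⁻¹) * (d'⁻¹ * (π z)⁻¹) := by group
      _ = π y * π z * (d * d') * d⁻¹ * (π y)⁻¹ * d'⁻¹ * (π z)⁻¹ := by rw [cd]; group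
      _ = π y * π z * (d' * (π y)⁻¹) * d'⁻¹ * (π z)⁻¹ := by rw [cdd]; group
      _ = π y * π z * ((π y)⁻¹ * d') * d'⁻¹ * (π z)⁻¹ := by
        rw [← map_inv π y, cd']
      _ = π y * π z * (π y)⁻¹ * (π z)⁻¹ := by group
  have hmemB : ∀ y z, ⁅π y, π z⁆ ∈ Db := fun y z =>
    ⟨⁅y, z⁆, commutator_mem_commutator (mem_top y) (mem_top z), map_commutatorElement π y z⟩
  have hcentral : ∀ w ∈ Db, ∀ z, w * π z = π z * w := by
    rintro _ ⟨d, hd, rfl⟩ z
    exact (hcD d hd z).eq
  have hmul : ∀ y y' z, ⁅π (y * y'), π z⁆ = ⁅π y', π z⁆ * ⁅π y, π z⁆ := by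
    intro y y' z
    have h1 : π y * ⁅π y', π z⁆ * (π y)⁻¹ = ⁅π y', π z⁆ := by
      rw [← hcentral _ (hmemB y' z) y, mul_inv_cancel_right]
    rw [map_mul]
    conv_rhs => rw [← h1]
    simp only [commutatorElement_def]
    group
  let b : F → F → Additive Db := fun a c => Additive.ofMul ⟨⁅π (r a), π (r c)⁆, hmemB _ _⟩
  have hb : ∀ y z, b (e y) (e z) = Additive.ofMul ⟨⁅π y, π z⁆, hmemB y z⟩ := by
    intro y z
    exact congrArg Additive.ofMul (Subtype.ext (hcongr _ _ _ _ (hr _) (hr _)))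
  have hadd : ∀ a a' c, b (a + a') c = b a c + b a' c := by
    intro a a' c
    obtain ⟨y, rfl⟩ := hsurj a
    obtain ⟨y', rfl⟩ := hsurj a'
    obtain ⟨z, rfl⟩ := hsurj c
    rw [← he, hb, hb, hb, add_comm (Additive.ofMul _) (Additive.ofMul _), ← ofMul_mul]
    exact congrArg Additive.ofMul (Subtype.ext (hmul y y' z))
  have hflip : ∀ a c, b a c = -b c a := by
    intro a c
    rw [← ofMul_inv]
    exact congrArg Additive.ofMul (Subtype.ext (commutatorElement_inv _ _).symm)
  have hadd' : ∀ a c c', b a (c + c') = b a c + b a c' := by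
    intro a c c'
    rw [hflip, hadd, neg_add, ← hflip, ← hflip]
  let B : F →+ F →+ Additive Db :=
    AddMonoidHom.mk' (fun a => AddMonoidHom.mk' (b a) (hadd' a))
      fun a a' => AddMonoidHom.ext fun c => hadd a a' c
  have hB0 : ∀ y z, B (e y) (e z) = Additive.ofMul ⟨⁅π y, π z⁆, hmemB y z⟩ := hb
  have hgen : ∀ A : Subgroup Db, (∀ a c, Additive.toMul (B a c) ∈ A) → A = ⊤ := by
    intro A hA
    rw [eq_top_iff]
    rintro ⟨_, d, hd, rfl⟩ -
    have hle : D ≤ (A.map Db.subtype).comap π := by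
      rw [hD, _root_.commutator_def, commutator_le]
      intro y _ z _
      rw [mem_comap, map_commutatorElement]
      refine ⟨_, hA (e y) (e z), ?_⟩
      rw [hB0]
      rfl
    obtain ⟨w, hw, hwd⟩ := hle hd
    rwa [show (⟨π d, mem_map_of_mem π hd⟩ : Db) = w from Subtype.ext hwd.symm]
  have hpDb : ∀ w : Additive Db, p • w = 0 := by
    intro w
    have := hgen ((powMonoidHom p : Db →* Db)).ker (fun a c => ?_)
    · have h1 : Additive.toMul w ∈ (powMonoidHom p : Db →* Db).ker := this ▸ mem_top _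
      exact congrArg Additive.ofMul h1
    · show Additive.toMul (p • B a c) = 1
      rw [← AddMonoidHom.nsmul_apply, ← map_nsmul, nsmul_eq_mul, CharP.cast_eq_zero, zero_mul,
        map_zero]
      rfl
  obtain ⟨x₀, hx₀⟩ : ∃ x₀, e x₀ ≠ 0 := ⟨x, hx⟩
  have hcardDb : Nat.card (Additive Db) < p ^ n := by
    refine lt_of_lt_of_le ?_ ((card_centralizer_quotient_le E x₀).trans (hC x₀ hx₀))
    have hle : Db < centralizer ({π x₀} : Set (S ⧸ E)) := by
      refine lt_of_le_of_ne (fun w hw => mem_centralizer_singleton_iff.2 (hcentral w hw x₀))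
        fun h => hout x₀ hx₀ ?_
      have h1 : π x₀ ∈ Db := by
        rw [h]
        exact mem_centralizer_singleton_iff.2 rfl
      obtain ⟨d, hd, hdx⟩ := h1
      have h2 : d⁻¹ * x₀ ∈ E := QuotientGroup.eq.1 hdx
      simpa using mul_mem hd (hED h2)
    exact Set.ncard_lt_ncard (SetLike.coe_ssubset_coe.2 hle) (Set.toFinite _)
  -- the automorphism
  let τE : (S ⧸ E) →* (S ⧸ E) :=
    QuotientGroup.map E E τ.toMonoidHom fun y hy => hmapE (mem_map_of_mem _ hy)
  have hτE : ∀ y, τE (π y) = π (τ y) := fun y => rfl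
  let Tm : Db →* Db := (τE.comp Db.subtype).codRestrict Db fun w => by
    obtain ⟨d, hd, hdw⟩ := w.2
    exact ⟨τ d, hmapD (mem_map_of_mem _ hd), by rw [← hτE, hdw]; rfl⟩
  let T : Additive Db →+ Additive Db := Tm.toAdditive
  have hTit : ∀ (k : ℕ) (w : Additive Db) (d : S), ((Additive.toMul w : Db) : S ⧸ E) = π d →
      ((Additive.toMul (T^[k] w) : Db) : S ⧸ E) = π ((⇑τ)^[k] d) := by
    intro k
    induction k with
    | zero => intro w d h; exact h
    | succ k ih =>
      intro w d h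
      rw [Function.iterate_succ_apply', Function.iterate_succ_apply', ← hτE, ← ih w d h]
      rfl
  have hTB : ∀ (k : ℕ) a c, B (μ ^ k * a) (μ ^ k * c) = T^[k] (B a c) := by
    intro k a c
    obtain ⟨y, rfl⟩ := hsurj a
    obtain ⟨z, rfl⟩ := hsurj c
    rw [← heτ, ← heτ, hB0, hB0]
    apply Additive.toMul.injective
    apply Subtype.ext
    rw [hTit k (Additive.ofMul ⟨⁅π y, π z⁆, hmemB y z⟩) ⁅y, z⁆ (map_commutatorElement π y z).symm]
    show ⁅π ((⇑τ)^[k] y), π ((⇑τ)^[k] z)⁆ = _
    rw [← map_commutatorElement]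
    congr 1
    clear * -
    induction k with
    | zero => rfl
    | succ k ih => simp only [Function.iterate_succ_apply', ← ih, map_commutatorElement]
  have hTgen : ∀ k : ℕ, (∀ a c, B (μ ^ k * a) (μ ^ k * c) = B a c) →
      ∀ d ∈ D, π ((⇑τ)^[k] d) = π d := by
    intro k hk d hd
    have hh : ∀ w : Additive Db, T^[k] w = w := by
      intro w
      let Tk : Db →* Db :=
        MonoidHom.mk' (fun w => Additive.toMul (T^[k] (Additive.ofMul w))) fun w w' => by
          rw [ofMul_mul, iterate_map_add, toMul_add]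
      have := hgen (Tk.eqLocus (MonoidHom.id Db)) fun a c => by
        show Additive.toMul (T^[k] (B a c)) = Additive.toMul (B a c)
        rw [← hTB, hk]
      exact congrArg Additive.ofMul (show Tk (Additive.toMul w) = Additive.toMul w from
        (this ▸ mem_top (Additive.toMul w) : Additive.toMul w ∈ Tk.eqLocus (MonoidHom.id Db)))
    rw [← hTit k (Additive.ofMul ⟨π d, mem_map_of_mem π hd⟩) d rfl, hh]
    rfl
  have hq1B : ∀ a c, B (μ ^ q1 * a) (μ ^ q1 * c) = B a c := by
    intro a c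
    rw [hμq, one_mul, one_mul]
  have hTq : ∀ w : Additive Db, T^[q1] w = w := by
    intro w
    obtain ⟨d, hd, hdw⟩ := (Additive.toMul w).2
    apply Additive.toMul.injective
    apply Subtype.ext
    rw [hTit q1 w d hdw.symm, hTgen q1 hq1B d hd, hdw]
  have hfix := bracket_fixed hcard hp2 hμ hpDb hcardDb T hTq B
    (fun a => by
      show Additive.ofMul (⟨⁅π (r a), π (r a)⁆, _⟩ : Db) = 0
      exact congrArg Additive.ofMul (Subtype.ext (commutatorElement_self _)))
    (fun a c => by simpa using hTB 1 a c)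
  set s := p ^ (n / 2) - 1 with hs
  -- the class is two
  have hE1 : E = ⊥ := by
    refine eq_bot_of_le_commutator E ?_
    by_cases hB : ∀ a c, B a c = 0
    · have hDE : D ≤ E := by
        rw [hD, _root_.commutator_def, commutator_le]
        intro y _ z _
        rw [← QuotientGroup.eq_one_iff]
        have h1 := hB (e y) (e z)
        rw [hB0] at h1
        have h2 : ⁅π y, π z⁆ = 1 := congrArg (fun w => ((Additive.toMul w : Db) : S ⧸ E)) h1
        rwa [← map_commutatorElement] at h2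
      rw [hE]
      exact commutator_mono hDE le_rfl
    push Not at hB
    obtain ⟨a₁, c₁, hac⟩ := hB
    have hn2 := (hfix a₁ c₁).2 hac
    have hDs : ∀ d ∈ D, π ((⇑τ)^[s] d) = π d :=
      hTgen s fun a c => (hTB s a c).trans (hfix a c).1
    set ρ := QuotientGroup.mk' E' with hρ
    have hcE : ∀ d ∈ E, ∀ y, Commute (ρ d) (ρ y) := by
      intro d hd y
      rw [commute_iff_eq, ← commutatorElement_eq_one_iff_mul_comm, ← map_commutatorElement, hρ,
        QuotientGroup.mk'_apply, QuotientGroup.eq_one_iff]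
      exact commutator_mem_commutator hd (mem_top y)
    have hDD : ⁅D.map ρ, D.map ρ⁆ = ⊥ := by
      have hbot : ⁅⁅D.map ρ, (⊤ : Subgroup S).map ρ⁆, (⊤ : Subgroup S).map ρ⁆ = ⊥ := by
        rw [← map_commutator, ← hE, ← map_commutator, ← hE', Subgroup.map_eq_bot_iff, hρ,
          QuotientGroup.ker_mk']
      have hbot' : ⁅⁅(⊤ : Subgroup S).map ρ, D.map ρ⁆, (⊤ : Subgroup S).map ρ⁆ = ⊥ := by
        rw [commutator_comm ((⊤ : Subgroup S).map ρ) (D.map ρ)]
        exact hbot
      have h3 := commutator_commutator_eq_bot_of_rotate hbot' hbot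
      rw [← map_commutator (⊤ : Subgroup S) ⊤, ← _root_.commutator_def, ← hD] at h3
      exact h3
    set Eb := E.map ρ with hEb
    letI : CommGroup Eb :=
      { (inferInstance : Group Eb) with
        mul_comm := by
          rintro ⟨_, a, ha, rfl⟩ ⟨_, c, -, rfl⟩
          exact Subtype.ext (hcE a ha c).eq }
    have hcEb : ∀ w ∈ Eb, ∀ z, w * ρ z = ρ z * w := by
      rintro _ ⟨d, hd, rfl⟩ z
      exact (hcE d hd z).eq
    have hcardEb : Nat.card (Additive Eb) < p ^ n := by
      refine lt_of_lt_of_le ?_ ((card_centralizer_quotient_le E' x₀).trans (hC x₀ hx₀))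
      have hle : Eb < centralizer ({ρ x₀} : Set (S ⧸ E')) := by
        refine lt_of_le_of_ne (fun w hw => mem_centralizer_singleton_iff.2 (hcEb w hw x₀))
          fun h => hout x₀ hx₀ ?_
        have h1 : ρ x₀ ∈ Eb := by
          rw [h]
          exact mem_centralizer_singleton_iff.2 rfl
        obtain ⟨d, hd, hdx⟩ := h1
        have h2 : d⁻¹ * x₀ ∈ E' := QuotientGroup.eq.1 hdx
        simpa using mul_mem (hED hd) (hED (hEE h2))
      exact Set.ncard_lt_ncard (SetLike.coe_ssubset_coe.2 hle) (Set.toFinite _)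
    have hcomD : ∀ d ∈ D, ∀ d' ∈ D, ρ d * ρ d' = ρ d' * ρ d := by
      intro d hd d' hd'
      rw [← commutatorElement_eq_one_iff_mul_comm, ← mem_bot, ← hDD]
      exact commutator_mem_commutator (mem_map_of_mem ρ hd) (mem_map_of_mem ρ hd')
    have hmemC : ∀ d ∈ D, ∀ z, ⁅ρ d, ρ z⁆ ∈ Eb := fun d hd z =>
      ⟨⁅d, z⁆, commutator_mem_commutator hd (mem_top z), map_commutatorElement ρ d z⟩
    have hcong : ∀ d ∈ D, ∀ z z', e z = e z' → ⁅ρ d, ρ z⁆ = ⁅ρ d, ρ z'⁆ := by
      intro d hd z z' h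
      have hz := hediff _ _ h
      conv_rhs => rw [show z' = z * (z⁻¹ * z') by group, map_mul]
      simp only [commutatorElement_def]
      symm
      calc ρ d * (ρ z * ρ (z⁻¹ * z')) * (ρ d)⁻¹ * (ρ z * ρ (z⁻¹ * z'))⁻¹
          = ρ d * ρ z * (ρ (z⁻¹ * z') * ρ d⁻¹) * (ρ (z⁻¹ * z'))⁻¹ * (ρ z)⁻¹ := by
            rw [map_inv]; group
        _ = ρ d * ρ z * (ρ d⁻¹ * ρ (z⁻¹ * z')) * (ρ (z⁻¹ * z'))⁻¹ * (ρ z)⁻¹ := by
            rw [hcomD _ hz _ (inv_mem hd)]
        _ = ρ d * ρ z * (ρ d)⁻¹ * (ρ z)⁻¹ := by rw [map_inv]; group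
    have hmulC : ∀ d ∈ D, ∀ z z', ⁅ρ d, ρ (z * z')⁆ = ⁅ρ d, ρ z⁆ * ⁅ρ d, ρ z'⁆ := by
      intro d hd z z'
      have h1 : ρ z * ⁅ρ d, ρ z'⁆ * (ρ z)⁻¹ = ⁅ρ d, ρ z'⁆ := by
        rw [← hcEb _ (hmemC d hd z') z, mul_inv_cancel_right]
      rw [map_mul]
      conv_rhs => rw [← h1]
      simp only [commutatorElement_def]
      group
    let C : ∀ d ∈ D, F →+ Additive Eb := fun d hd =>
      AddMonoidHom.mk' (fun a => Additive.ofMul ⟨⁅ρ d, ρ (r a)⁆, hmemC d hd _⟩) fun a a' => by
        rw [← ofMul_mul]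
        refine congrArg Additive.ofMul (Subtype.ext ?_)
        show _ = ⁅ρ d, ρ (r a)⁆ * ⁅ρ d, ρ (r a')⁆
        rw [← hmulC d hd]
        exact hcong d hd _ _ (by rw [hr, he, hr, hr])
    have hgenC : ∀ A : Subgroup Eb, (∀ d (hd : d ∈ D) a, Additive.toMul (C d hd a) ∈ A) → A = ⊤ := by
      intro A hA
      rw [eq_top_iff]
      rintro ⟨_, d, hd, rfl⟩ -
      have hle : E ≤ (A.map Eb.subtype).comap ρ := by
        rw [hE, commutator_le]
        intro y hy z _
        rw [mem_comap, map_commutatorElement]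
        exact ⟨_, hA y hy (e z), hcong y hy _ _ (hr _)⟩
      obtain ⟨w, hw, hwd⟩ := hle hd
      rwa [show (⟨ρ d, mem_map_of_mem ρ hd⟩ : Eb) = w from Subtype.ext hwd.symm]
    have hpEb : ∀ w : Additive Eb, p • w = 0 := by
      intro w
      have := hgenC ((powMonoidHom p : Eb →* Eb)).ker (fun d hd a => ?_)
      · have h1 : Additive.toMul w ∈ (powMonoidHom p : Eb →* Eb).ker := this ▸ mem_top _
        exact congrArg Additive.ofMul h1
      · show Additive.toMul (p • C d hd a) = 1
        rw [← map_nsmul, nsmul_eq_mul, CharP.cast_eq_zero, zero_mul, map_zero]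
        rfl
    let τ' : (S ⧸ E') →* (S ⧸ E') :=
      QuotientGroup.map E' E' τ.toMonoidHom fun y hy => hmapE' (mem_map_of_mem _ hy)
    have hτ' : ∀ y, τ' (ρ y) = ρ (τ y) := fun y => rfl
    let Tm' : Eb →* Eb := (τ'.comp Eb.subtype).codRestrict Eb fun w => by
      obtain ⟨d, hd, hdw⟩ := w.2
      exact ⟨τ d, hmapE (mem_map_of_mem _ hd), by rw [← hτ', hdw]; rfl⟩
    let T' : Additive Eb →+ Additive Eb := Tm'.toAdditive
    have hTit' : ∀ (k : ℕ) (w : Additive Eb) (d : S), ((Additive.toMul w : Eb) : S ⧸ E') = ρ d →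
        ((Additive.toMul (T'^[k] w) : Eb) : S ⧸ E') = ρ ((⇑τ)^[k] d) := by
      intro k
      induction k with
      | zero => intro w d h; exact h
      | succ k ih =>
        intro w d h
        rw [Function.iterate_succ_apply', Function.iterate_succ_apply', ← hτ', ← ih w d h]
        rfl
    have hTC : ∀ k : ℕ, (∀ d ∈ D, π ((⇑τ)^[k] d) = π d) →
        ∀ d (hd : d ∈ D) a, C d hd (μ ^ k * a) = T'^[k] (C d hd a) := by
      intro k hk d hd a
      apply Additive.toMul.injective
      apply Subtype.ext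
      rw [hTit' k (C d hd a) ⁅d, r a⁆ (map_commutatorElement ρ d (r a)).symm]
      have hit : (⇑τ)^[k] ⁅d, r a⁆ = ⁅(⇑τ)^[k] d, (⇑τ)^[k] (r a)⁆ := by
        clear * -
        induction k with
        | zero => rfl
        | succ k ih => simp only [Function.iterate_succ_apply', ih, map_commutatorElement]
      rw [hit, map_commutatorElement]
      have hdE : d⁻¹ * (⇑τ)^[k] d ∈ E := QuotientGroup.eq.1 (hk d hd).symm
      show ⁅ρ d, ρ (r (μ ^ k * a))⁆ = _
      rw [hcong d hd (r (μ ^ k * a)) ((⇑τ)^[k] (r a)) (by rw [hr, heτ, hr])]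
      conv_rhs => rw [show (⇑τ)^[k] d = d * (d⁻¹ * (⇑τ)^[k] d) by group, map_mul]
      generalize hε : ρ (d⁻¹ * (⇑τ)^[k] d) = ε
      generalize hz : ρ ((⇑τ)^[k] (r a)) = z'
      have hc : ε * z' = z' * ε := hε ▸ hz ▸ (hcE _ hdE _).eq
      simp only [commutatorElement_def]
      calc ρ d * z' * (ρ d)⁻¹ * z'⁻¹ = ρ d * (z' * ε) * ε⁻¹ * (ρ d)⁻¹ * z'⁻¹ := by group
        _ = ρ d * (ε * z') * ε⁻¹ * (ρ d)⁻¹ * z'⁻¹ := by rw [hc]
        _ = _ := by group
    have hTq' : ∀ w : Additive Eb, T'^[q1] w = w := by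
      intro w
      let Tk : Eb →* Eb :=
        MonoidHom.mk' (fun w => Additive.toMul (T'^[q1] (Additive.ofMul w))) fun w w' => by
          rw [ofMul_mul, iterate_map_add, toMul_add]
      have := hgenC (Tk.eqLocus (MonoidHom.id Eb)) fun d hd a => by
        show Additive.toMul (T'^[q1] (C d hd a)) = Additive.toMul (C d hd a)
        rw [← hTC q1 (hTgen q1 hq1B) d hd a, hμq, one_mul]
      exact congrArg Additive.ofMul (show Tk (Additive.toMul w) = Additive.toMul w from
        (this ▸ mem_top (Additive.toMul w) : Additive.toMul w ∈ Tk.eqLocus (MonoidHom.id Eb)))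
    rw [hE, commutator_le]
    intro d hd z _
    have hzero := eq_zero_of_equivariant hcard hn2 hμ hpEb hcardEb T' hTq' (C d hd)
      (hTC s hDs d hd)
    have h1 := DFunLike.congr_fun hzero (e z)
    have h2 : ⁅ρ d, ρ (r (e z))⁆ = 1 := congrArg (fun w => ((Additive.toMul w : Eb) : S ⧸ E')) h1
    rw [hcong d hd _ z (hr _), ← map_commutatorElement] at h2
    exact (QuotientGroup.eq_one_iff _).1 h2
  -- the inverting power
  have hπinj : ∀ y z, π y = π z → y = z := by
    intro y z h
    have := QuotientGroup.eq.1 h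
    rw [hE1, mem_bot, inv_mul_eq_one] at this
    exact this
  have hpD : ∀ d ∈ D, d ^ p = 1 := by
    intro d hd
    refine hπinj _ _ ?_
    rw [map_one, map_pow]
    exact congrArg (fun w => ((Additive.toMul w : Db) : S ⧸ E))
      (hpDb (Additive.ofMul ⟨π d, mem_map_of_mem π hd⟩))
  set k := q1 / 2 with hk
  have heven : 2 ∣ q1 := by
    rw [hq1, hcard]
    have hodd : Odd p := (Fact.out : p.Prime).odd_of_ne_two hp2
    exact even_iff_two_dvd.1 (Nat.Odd.sub_odd (hodd.pow) odd_one)
  have hkneg : μ ^ k = -1 := by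
    have hsq : μ ^ k * μ ^ k = 1 := by
      rw [← pow_add, ← two_mul, hk, Nat.mul_div_cancel' heven, hμq]
    refine (mul_self_eq_one_iff.1 hsq).resolve_left fun h1 => ?_
    have h2 := Nat.le_of_dvd ?_ (orderOf_dvd_of_pow_eq_one h1)
    · rw [hμ, ← hcard, ← hq1] at h2
      have := Fintype.one_lt_card (α := F)
      omega
    · have := Fintype.one_lt_card (α := F)
      omega
  have hfixD : ∀ d ∈ D, (⇑τ)^[k] d = d := fun d hd =>
    hπinj _ _ (hTgen k (fun a c => by
      rw [hkneg, neg_one_mul, neg_one_mul, map_neg, map_neg, AddMonoidHom.neg_apply, neg_neg]) d hd)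
  have hxp : x ^ p ∈ D := by
    rw [hD, ← hker, hepow, CharP.cast_eq_zero, zero_mul]
  set z := x * (⇑τ)^[k] x with hz
  have hzD : z ∈ D := by
    rw [hD, ← hker, hz, he, heτ, hkneg, neg_one_mul, add_neg_cancel]
  have hzc : Commute x⁻¹ z := by
    have := hcD z hzD x⁻¹
    exact (hπinj _ _ (by simpa only [map_mul] using this.eq)).symm
  have hit : (⇑τ)^[k] (x ^ p) = ((⇑τ)^[k] x) ^ p := iterate_map_pow τ k x p
  rw [hfixD _ hxp, show (⇑τ)^[k] x = x⁻¹ * z by rw [hz, inv_mul_cancel_left], hzc.mul_pow,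
    hpD z hzD, mul_one, inv_pow, eq_inv_iff_mul_eq_one, ← sq] at hit
  obtain ⟨j, hj⟩ := hS.exists_orderOf_eq_pow (x ^ p) |>.elim (fun j hj => (⟨j, hj⟩ : ∃ j, orderOf (x ^ p) = p ^ j))
  have h2 := orderOf_dvd_of_pow_eq_one hit
  rw [hj] at h2
  have : p ^ j = 1 := Nat.eq_one_of_dvd_coprimes
    (((Nat.coprime_primes Nat.prime_two Fact.out).2 (Ne.symm hp2)).pow_right j).symm dvd_rfl h2
  rw [← orderOf_eq_one_iff, hj, this]

end Cfsg.Agent.SeenOnce
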