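import Mathlib

/-!
# Equivariant alternating maps on a finite field

Let `μ` generate the multiplicative group of a field of order `p ^ n`.  An alternating map that is
equivariant for multiplication by `μ` and takes values in a group of order less than `p ^ n` is
invariant under `μ ^ (p ^ (n / 2) - 1)`, and there is no non-zero map equivariant for that power with
values in such a group.
-/

set_option autoImplicit false

namespace Cfsg.Agent.SeenOnce

open Finset
open scoped Classical

universe u v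

variable {F : Type u} [Field F] [Fintype F] {p n : ℕ} [Fact p.Prime] [CharP F p]
variable {L : Type v} [AddCommGroup L]

/-- The eigenprojection of an additive map to `F`. -/
noncomputable def proj (lam : Fˣ) (T : L →+ L) (f : L →+ F) : L →+ F :=
  AddMonoidHom.mk'
    (fun x => ∑ k ∈ range (Fintype.card F - 1), ((lam⁻¹ : Fˣ) : F) ^ k * f (T^[k] x))
    fun x y => by simp only [iterate_map_add, map_add, mul_add, sum_add_distrib]

theorem proj_apply (lam : Fˣ) (T : L →+ L) (f : L →+ F) (x : L) :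
    proj lam T f x =
      ∑ k ∈ range (Fintype.card F - 1), ((lam⁻¹ : Fˣ) : F) ^ k * f (T^[k] x) :=
  rfl

omit [Fintype F] in
theorem sum_range_succ_eq {α : Type*} [AddCommGroup α] (N : ℕ) (g : ℕ → α) (h : g N = g 0) :
    ∑ k ∈ range N, g (k + 1) = ∑ k ∈ range N, g k := by
  have h1 := sum_range_succ g N
  rw [sum_range_succ' g N, h] at h1
  exact add_right_cancel h1

theorem proj_map (lam : Fˣ) (T : L →+ L) (hT : ∀ x, T^[Fintype.card F - 1] x = x) (f : L →+ F)
    (x : L) : proj lam T f (T x) = (lam : F) * proj lam T f x := by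
  rw [proj_apply, proj_apply, mul_sum]
  set g : ℕ → F := fun k => (lam : F) * (((lam⁻¹ : Fˣ) : F) ^ k * f (T^[k] x)) with hg
  rw [← sum_range_succ_eq _ g]
  · refine sum_congr rfl fun k _ => ?_
    rw [hg]
    simp only
    rw [pow_succ', ← mul_assoc, ← mul_assoc, Units.mul_inv, one_mul, Function.iterate_succ_apply]
  · have h1 : ((lam⁻¹ : Fˣ) : F) ^ (Fintype.card F - 1) = 1 :=
      FiniteField.pow_card_sub_one_eq_one _ (lam⁻¹).ne_zero
    simp only [hg, h1, hT, pow_zero, Function.iterate_zero, id_eq]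

theorem sum_proj (T : L →+ L) (f : L →+ F) (x : L) :
    ∑ lam : Fˣ, proj lam T f x = -f x := by
  classical
  simp only [proj_apply]
  rw [sum_comm]
  have h1 : 0 < Fintype.card F - 1 := by
    have := Fintype.one_lt_card (α := F)
    omega
  rw [sum_eq_single_of_mem 0 (mem_range.2 h1)]
  · have h2 : ∑ lam : Fˣ, ((lam⁻¹ : Fˣ) : F) ^ 0 = -1 := by
      rw [Fintype.sum_equiv (Equiv.inv Fˣ) (fun l : Fˣ => ((l⁻¹ : Fˣ) : F) ^ 0)
        (fun l : Fˣ => (l : F) ^ 0) (fun l => rfl),
        FiniteField.sum_pow_units,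
        if_pos (dvd_zero _)]
    rw [← sum_mul, h2]
    simp
  · intro k hk hk0
    have h2 : ∑ lam : Fˣ, ((lam⁻¹ : Fˣ) : F) ^ k = 0 := by
      rw [Fintype.sum_equiv (Equiv.inv Fˣ) (fun l : Fˣ => ((l⁻¹ : Fˣ) : F) ^ k)
        (fun l : Fˣ => (l : F) ^ k) (fun l => rfl),
        FiniteField.sum_pow_units,
        if_neg fun hd => ?_]
      exact hk0 (Nat.eq_zero_of_dvd_of_lt hd (mem_range.1 hk))
    rw [← sum_mul, h2, zero_mul]

omit [Field F] [Fintype F] [CharP F p] in
theorem exists_dual_ne_zero (iM : Module (ZMod p) L) {x : L} (hx : x ≠ 0) :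
    ∃ φ : L →ₗ[ZMod p] ZMod p, φ x ≠ 0 := by
  have hF : Module.Free (ZMod p) L := Module.Free.of_divisionRing (ZMod p) L
  haveI hP : Module.Projective (ZMod p) L := @Module.Projective.of_free (ZMod p) _ L _ _ hF
  by_contra h
  push Not at h
  exact hx ((Module.forall_dual_apply_eq_zero_iff (ZMod p) x).1 h)

omit [Fintype F] in
/-- Additive maps into `F` separate a group of exponent `p`. -/
theorem exists_hom_ne_zero (hp : ∀ x : L, p • x = 0) {x : L} (hx : x ≠ 0) :
    ∃ f : L →+ F, f x ≠ 0 := by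
  obtain ⟨φ, hφ⟩ := exists_dual_ne_zero (p := p) (AddCommGroup.zmodModule hp) hx
  refine ⟨((ZMod.castHom (dvd_refl p) F).toAddMonoidHom.comp
    φ.toAddMonoidHom), fun h => hφ ((ZMod.castHom (dvd_refl p) F).injective ?_)⟩
  simpa using h

/-- An eigenvalue on a small group lies in a proper subfield. -/
theorem exists_pow_eq_self [Finite L] (hcard : Fintype.card F = p ^ n) (hL : Nat.card L < p ^ n)
    (T : L →+ L) (f : L →+ F) (hf : f ≠ 0) (lam : F) (hlam : ∀ x, f (T x) = lam * f x) :
    ∃ d, 0 < d ∧ d < n ∧ lam ^ p ^ d = lam := by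
  classical
  let R : Subring F :=
    { carrier := {r | ∀ w ∈ f.range, r * w ∈ f.range}
      one_mem' := fun w hw => by rwa [one_mul]
      mul_mem' := fun {a b} ha hb w hw => by rw [mul_assoc]; exact ha _ (hb w hw)
      zero_mem' := fun w _ => by rw [zero_mul]; exact zero_mem _
      add_mem' := fun {a b} ha hb w hw => by rw [add_mul]; exact add_mem (ha w hw) (hb w hw)
      neg_mem' := fun {a} ha w hw => by rw [neg_mul]; exact neg_mem (ha w hw) }
  obtain ⟨x₀, hx₀⟩ : ∃ x, f x ≠ 0 := by
    by_contra h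
    push Not at h
    exact hf (AddMonoidHom.ext h)
  have hmem : lam ∈ R := by
    rintro w ⟨x, rfl⟩
    exact ⟨T x, hlam x⟩
  have hle : Nat.card R ≤ Nat.card L := by
    have h1 : Nat.card R ≤ Nat.card f.range := by
      refine Nat.card_le_card_of_injective
        (fun r : R => (⟨(r : F) * f x₀, r.2 _ ⟨x₀, rfl⟩⟩ : f.range)) fun a b h => ?_
      exact Subtype.ext (mul_right_cancel₀ hx₀ (congrArg Subtype.val h))
    exact h1.trans (Nat.card_le_card_of_surjective _ f.rangeRestrict_surjective)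
  letI : Field R := Fintype.fieldOfDomain R
  obtain ⟨d, -, hd⟩ := FiniteField.card R p
  refine ⟨d, d.pos, ?_, ?_⟩
  · rw [Nat.card_eq_fintype_card, hd] at hle
    exact (Nat.pow_lt_pow_iff_right (Fact.out : p.Prime).one_lt).1 (hle.trans_lt hL)
  · have h1 : (⟨lam, hmem⟩ : R) ^ Fintype.card R = ⟨lam, hmem⟩ := FiniteField.pow_card _
    rw [hd] at h1
    exact congrArg Subtype.val h1

variable {μ : F}

omit [Fintype F] in
theorem pow_eq_pow_modEq {a b : ℕ} (hμ0 : μ ≠ 0) (h : μ ^ a = μ ^ b) : a ≡ b [MOD orderOf μ] := by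
  rw [← Units.val_mk0 hμ0, orderOf_units, ← pow_eq_pow_iff_modEq]
  exact Units.ext (by simpa using h)

theorem eq_pow_or_zero (hμ : orderOf μ = Fintype.card F - 1) (x : F) : x = 0 ∨ ∃ k, x = μ ^ k := by
  classical
  rcases eq_or_ne x 0 with hx | hx
  · exact Or.inl hx
  have h1 := Fintype.one_lt_card (α := F)
  have hμ0 : μ ≠ 0 := fun h => by
    rw [h, orderOf_zero F] at hμ
    omega
  have hcardu : orderOf (Units.mk0 μ hμ0) = Nat.card Fˣ := by
    rw [← orderOf_units, Units.val_mk0, hμ, Nat.card_units, Nat.card_eq_fintype_card]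
  have hgen : Subgroup.zpowers (Units.mk0 μ hμ0) = ⊤ :=
    Subgroup.eq_top_of_card_eq _ (by rw [Nat.card_zpowers, hcardu])
  obtain ⟨k, hk⟩ : Units.mk0 x hx ∈ Submonoid.powers (Units.mk0 μ hμ0) := by
    rw [mem_powers_iff_mem_zpowers, hgen]
    exact Subgroup.mem_top _
  refine Or.inr ⟨k, ?_⟩
  have h3 := congrArg Units.val hk
  simpa using h3.symm

/-- A semilinear map is a Frobenius power. -/
theorem eigenvalue_eq (hcard : Fintype.card F = p ^ n) (hμ : orderOf μ = p ^ n - 1)
    (u : F →+ F) (hu : u ≠ 0) {ν : F} (h : ∀ x, u (μ * x) = ν * u x) :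
    ∃ i, i < n ∧ ν = μ ^ p ^ i := by
  classical
  have hμ' : orderOf μ = Fintype.card F - 1 := hcard ▸ hμ
  have hk : ∀ k : ℕ, u (μ ^ k) = ν ^ k * u 1 := by
    intro k
    induction k with
    | zero => simp
    | succ k ih => rw [pow_succ', h, ih, pow_succ', mul_assoc]
  have hu1 : u 1 ≠ 0 := by
    intro h1
    refine hu (AddMonoidHom.ext fun x => ?_)
    rcases eq_pow_or_zero hμ' x with rfl | ⟨k, rfl⟩
    · simp
    · simp [hk k, h1]
  let φ : F →+* F :=
    { toFun := fun x => u x / u 1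
      map_one' := div_self hu1
      map_zero' := by simp
      map_add' := fun x y => by rw [map_add, add_div]
      map_mul' := fun x y => by
        rcases eq_pow_or_zero hμ' x with rfl | ⟨a, rfl⟩
        · simp
        rcases eq_pow_or_zero hμ' y with rfl | ⟨b, rfl⟩
        · simp
        rw [← pow_add, hk, hk, hk, pow_add]
        field_simp }
  have hφ : φ μ = ν := by
    show u μ / u 1 = ν
    have := h 1
    rw [mul_one] at this
    rw [this, mul_div_cancel_right₀ _ hu1]
  letI : Algebra (ZMod p) F := ZMod.algebra F p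
  let σ : F →ₐ[ZMod p] F :=
    { φ with commutes' := fun r => RingHom.congr_fun (RingHom.ext_zmod (φ.comp (algebraMap (ZMod p) F)) (algebraMap (ZMod p) F)) r }
  obtain ⟨⟨i, hi⟩, hσ⟩ := (FiniteField.bijective_frobeniusAlgHom_pow (ZMod p) F).2 σ
  refine ⟨i, ?_, ?_⟩
  · have hn : Module.finrank (ZMod p) F = n := by
      refine Nat.pow_right_injective (Fact.out : p.Prime).two_le ?_
      simp only
      rw [← hcard, Module.card_eq_pow_finrank (K := ZMod p) (V := F), ZMod.card]
    omega
  · rw [← hφ, show φ μ = σ μ from rfl, ← hσ]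
    simp [AlgHom.coe_pow, FiniteField.coe_frobeniusAlgHom, pow_iterate, ZMod.card]

omit [Field F] [Fintype F] [CharP F p] in
/-- A number has at most one expression as a sum of two powers of `p ≥ 3`. -/
theorem pow_add_pow_inj (hp3 : 3 ≤ p) : ∀ {a b c d : ℕ}, a ≤ b → c ≤ d →
    p ^ a + p ^ b = p ^ c + p ^ d → a = c ∧ b = d := by
  intro a b c d hab hcd h
  have hb : ∀ {a b c d : ℕ}, a ≤ b → c ≤ d → p ^ a + p ^ b = p ^ c + p ^ d → b ≤ d := by
    intro a b c d hab hcd h
    by_contra hlt
    push Not at hlt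
    have h1 : p ^ c ≤ p ^ d := Nat.pow_le_pow_right (by omega) hcd
    have h2 : p ^ (d + 1) ≤ p ^ b := Nat.pow_le_pow_right (by omega) hlt
    have h3 : 3 * p ^ d ≤ p ^ (d + 1) := by rw [pow_succ']; exact Nat.mul_le_mul_right _ hp3
    have h4 : 0 < p ^ d := Nat.pow_pos (by omega)
    omega
  have hbd : b = d := le_antisymm (hb hab hcd h) (hb hcd hab h.symm)
  subst hbd
  refine ⟨Nat.pow_right_injective (by omega : 2 ≤ p) ?_, rfl⟩
  simp only
  omega

omit [Field F] [Fintype F] [CharP F p] in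
/-- The digit argument. -/
theorem two_mul_shift_eq (hp3 : 3 ≤ p) {i j d : ℕ} (hi : i < n) (hj : j < n) (hij : i ≠ j)
    (hd0 : 0 < d) (hdn : d < n)
    (h : (p ^ (i + d) + p ^ (j + d)) ≡ (p ^ i + p ^ j) [MOD p ^ n - 1]) :
    n = 2 * d ∧ (i = j + d ∨ j = i + d) := by
  have hn0 : 0 < n := by omega
  have hn1 : 1 ≤ p ^ n := Nat.pow_pos (by omega)
  have hpn : p ^ n ≡ 1 [MOD p ^ n - 1] := by
    conv_lhs => rw [← Nat.sub_add_cancel hn1]
    exact Nat.add_modEq_left
  have hred : ∀ a, p ^ a ≡ p ^ (a % n) [MOD p ^ n - 1] := by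
    intro a
    conv_lhs => rw [← Nat.div_add_mod a n, pow_add, pow_mul]
    simpa using (hpn.pow (a / n)).mul_right (p ^ (a % n))
  have hlt : ∀ a b, a < n → b < n → p ^ a + p ^ b < p ^ n - 1 := by
    intro a b ha hb
    have h1 : p ^ a ≤ p ^ (n - 1) := Nat.pow_le_pow_right (by omega) (by omega)
    have h2 : p ^ b ≤ p ^ (n - 1) := Nat.pow_le_pow_right (by omega) (by omega)
    have h3 : 3 * p ^ (n - 1) ≤ p ^ n := by
      conv_rhs => rw [← Nat.sub_add_cancel hn0, pow_succ']
      exact Nat.mul_le_mul_right _ hp3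
    have h4 : 1 < p ^ (n - 1) := Nat.one_lt_pow (by omega) (by omega)
    omega
  set i' := (i + d) % n with hi'
  set j' := (j + d) % n with hj'
  have hi'n : i' < n := Nat.mod_lt _ hn0
  have hj'n : j' < n := Nat.mod_lt _ hn0
  have heq : p ^ i' + p ^ j' = p ^ i + p ^ j :=
    Nat.ModEq.eq_of_lt_of_lt
      ((((hred (i + d)).add (hred (j + d))).symm).trans h) (hlt _ _ hi'n hj'n) (hlt _ _ hi hj)
  have hset : (i' = i ∧ j' = j) ∨ (i' = j ∧ j' = i) := by
    rcases le_total i' j' with h1 | h1 <;> rcases le_total i j with h2 | h2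
    · exact Or.inl (pow_add_pow_inj hp3 h1 h2 heq)
    · exact Or.inr (pow_add_pow_inj hp3 h1 h2 (by rw [heq, add_comm]))
    · obtain ⟨e1, e2⟩ := pow_add_pow_inj hp3 h1 h2 (by rw [← heq, add_comm])
      exact Or.inr ⟨e2, e1⟩
    · obtain ⟨e1, e2⟩ := pow_add_pow_inj hp3 h1 h2
        (show p ^ j' + p ^ i' = p ^ j + p ^ i by rw [add_comm, heq, add_comm])
      exact Or.inl ⟨e2, e1⟩
  have hmod : ∀ a, a < n → (a + d) % n = if a + d < n then a + d else a + d - n := by
    intro a ha
    split_ifs with hc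
    · exact Nat.mod_eq_of_lt hc
    · rw [Nat.mod_eq_sub_mod (by omega), Nat.mod_eq_of_lt (by omega)]
  rw [hi', hj', hmod i hi, hmod j hj] at hset
  split_ifs at hset <;> omega

/-- The bracket is fixed by a big power. -/
theorem bracket_fixed [Finite L] (hcard : Fintype.card F = p ^ n) (hp2 : p ≠ 2)
    (hμ : orderOf μ = p ^ n - 1) (hLp : ∀ x : L, p • x = 0) (hL : Nat.card L < p ^ n)
    (T : L →+ L) (hT : ∀ x, T^[Fintype.card F - 1] x = x) (B : F →+ F →+ L)
    (halt : ∀ a, B a a = 0) (hB : ∀ a b, B (μ * a) (μ * b) = T (B a b)) (a b : F) :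
    T^[p ^ (n / 2) - 1] (B a b) = B a b ∧ (B a b ≠ 0 → n = 2 * (n / 2)) := by
  classical
  have hp3 : 3 ≤ p := by
    have := (Fact.out : p.Prime).two_le
    omega
  have hμ' : orderOf μ = Fintype.card F - 1 := hcard ▸ hμ
  have hμ0 : μ ≠ 0 := fun h => by
    rw [h, orderOf_zero F] at hμ'
    have := Fintype.one_lt_card (α := F)
    omega
  set s := p ^ (n / 2) - 1 with hs
  -- every eigenfunctional that is non-zero on the bracket has eigenvalue fixed by the half shift
  have key : ∀ (f : L →+ F) (lam : F), (∀ x, f (T x) = lam * f x) → (∃ a b, f (B a b) ≠ 0) →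
      lam ^ s = 1 ∧ n = 2 * (n / 2) := by
    rintro f lam hlam ⟨a₀, b₀, hab⟩
    have hskew : ∀ x y, f (B x y) = -f (B y x) := by
      intro x y
      have h1 := halt (x + y)
      simp only [map_add, AddMonoidHom.add_apply, halt, zero_add, add_zero] at h1
      have h2 : B x y = -B y x := by
        rw [add_comm] at h1
        exact eq_neg_of_add_eq_zero_left (by simpa [add_comm] using h1)
      rw [h2, map_neg]
    -- project in the first variable
    let mulμ : F →+ F := AddMonoidHom.mulLeft μ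
    have hμ1 : μ ^ (Fintype.card F - 1) = 1 := by rw [← hμ', pow_orderOf_eq_one]
    have hmulT : ∀ x, mulμ^[Fintype.card F - 1] x = x := by
      intro x
      simp [mulμ, AddMonoidHom.coe_mulLeft, mul_left_iterate, hμ1]
    let β : F → F →+ F := fun y => f.comp (B.flip y)
    -- β in the first variable decomposes
    obtain ⟨ν₁, hν₁⟩ : ∃ ν₁ : Fˣ, proj ν₁ mulμ (β b₀) a₀ ≠ 0 := by
      by_contra h
      push Not at h
      have h1 := sum_proj mulμ (β b₀) a₀
      rw [sum_eq_zero fun l _ => h l, zero_eq_neg] at h1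
      exact hab h1
    let γ : F →+ F :=
      AddMonoidHom.mk' (fun y => proj ν₁ mulμ (β y) a₀) fun y z => by
        simp only [proj_apply, β, AddMonoidHom.comp_apply, AddMonoidHom.flip_apply, map_add,
          AddMonoidHom.add_apply]
        rw [← sum_add_distrib]
        exact sum_congr rfl fun k _ => by ring
    obtain ⟨ν₂, hν₂⟩ : ∃ ν₂ : Fˣ, proj ν₂ mulμ γ b₀ ≠ 0 := by
      by_contra h
      push Not at h
      have h1 := sum_proj mulμ γ b₀
      rw [sum_eq_zero fun l _ => h l, zero_eq_neg] at h1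
      exact hν₁ h1
    -- the bi-eigen part
    let W : F → F → F := fun x y =>
      ∑ k ∈ range (Fintype.card F - 1), ((ν₂⁻¹ : Fˣ) : F) ^ k * proj ν₁ mulμ (β (mulμ^[k] y)) x
    have hW2 : ∀ x y, W x (μ * y) = (ν₂ : F) * W x y := by
      intro x y
      let γx : F →+ F :=
        AddMonoidHom.mk' (fun y => proj ν₁ mulμ (β y) x) fun y z => by
          simp only [proj_apply, β, AddMonoidHom.comp_apply, AddMonoidHom.flip_apply, map_add,
          AddMonoidHom.add_apply]
          rw [← sum_add_distrib]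
          exact sum_congr rfl fun k _ => by ring
      have h1 := proj_map ν₂ mulμ hmulT γx y
      rw [proj_apply, proj_apply] at h1
      exact h1
    have hW1 : ∀ x y, W (μ * x) y = (ν₁ : F) * W x y := by
      intro x y
      simp only [W, mul_sum]
      refine sum_congr rfl fun k _ => ?_
      rw [show μ * x = mulμ x from rfl, proj_map ν₁ mulμ hmulT]
      ring
    have hW12 : ∀ x y, W (μ * x) (μ * y) = lam * W x y := by
      intro x y
      simp only [W, mul_sum, proj_apply, β, AddMonoidHom.comp_apply, AddMonoidHom.flip_apply]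
      refine sum_congr rfl fun k _ => sum_congr rfl fun l _ => ?_
      have e : ∀ m z, mulμ^[m] (μ * z) = μ * mulμ^[m] z := by
        intro m z
        simp [mulμ, AddMonoidHom.coe_mulLeft, mul_left_iterate, mul_left_comm]
      rw [e, e, hB, hlam]
      ring
    have hW0 : W a₀ b₀ ≠ 0 := by
      intro h
      apply hν₂
      rw [proj_apply]
      exact h
    have hlam12 : lam = (ν₁ : F) * ν₂ := by
      refine mul_right_cancel₀ hW0 ?_
      rw [← hW12, hW1, hW2, mul_assoc]
    let w₁ : F →+ F :=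
      AddMonoidHom.mk' (fun x => W x b₀) fun x z => by simp [W, map_add, mul_add, sum_add_distrib]
    let w₂ : F →+ F := proj ν₂ mulμ γ
    obtain ⟨i, hi, hνi⟩ := eigenvalue_eq hcard hμ w₁
      (fun h => hW0 (DFunLike.congr_fun h a₀)) (ν := (ν₁ : F)) (fun x => hW1 x b₀)
    obtain ⟨j, hj, hνj⟩ := eigenvalue_eq hcard hμ w₂
      (fun h => hν₂ (DFunLike.congr_fun h b₀)) (ν := (ν₂ : F))
      (fun y => proj_map ν₂ mulμ hmulT γ y)
    have hij : i ≠ j := by
      intro e
      have hνe : ν₁ = ν₂ := Units.ext (by rw [hνi, hνj, e])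
      subst hνe
      -- antisymmetric and symmetric
      have hanti : ∀ x y, W x y = -W y x := by
        intro x y
        simp only [W, proj_apply, β, AddMonoidHom.comp_apply, AddMonoidHom.flip_apply, mul_sum]
        rw [sum_comm, ← sum_neg_distrib]
        refine sum_congr rfl fun k _ => ?_
        rw [← sum_neg_distrib]
        refine sum_congr rfl fun l _ => ?_
        rw [hskew (mulμ^[k] x)]
        ring
      have h11 : W 1 1 = 0 := by
        have h1 := hanti 1 1
        have h2 : (2 : F) ≠ 0 := Ring.two_ne_zero (by rw [ringChar.eq F p]; exact hp2)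
        have h3 : (2 : F) * W 1 1 = 0 := by linear_combination h1
        exact (mul_eq_zero.1 h3).resolve_left h2
      apply hW0
      have hk : ∀ k l : ℕ, W (μ ^ k) (μ ^ l) = 0 := by
        intro k
        induction k with
        | zero =>
          intro l
          induction l with
          | zero => simpa using h11
          | succ l ih => rw [pow_succ', hW2, ih, mul_zero]
        | succ k ih => intro l; rw [pow_succ', hW1, ih, mul_zero]
      rcases eq_pow_or_zero hμ' a₀ with h | ⟨k, h⟩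
      · rw [h] at hab; simp at hab
      rcases eq_pow_or_zero hμ' b₀ with h' | ⟨l, h'⟩
      · rw [h'] at hab; simp at hab
      rw [h, h']
      exact hk k l
    have hf0 : f ≠ 0 := fun h => hab (by simp [h])
    obtain ⟨d, hd0, hdn, hd⟩ := exists_pow_eq_self hcard hL T f hf0 lam hlam
    rw [hlam12, hνi, hνj, ← pow_add, ← pow_mul, add_mul, ← pow_add, ← pow_add] at hd
    replace hd := hμ ▸ pow_eq_pow_modEq hμ0 hd
    obtain ⟨hn2, hshift⟩ := two_mul_shift_eq hp3 hi hj hij hd0 hdn hd
    have hd' : n / 2 = d := by omega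
    refine ⟨?_, by omega⟩
    have hmul : ∀ e, μ ^ ((p ^ e + p ^ (e + d)) * s) = 1 := by
      intro e
      refine orderOf_dvd_iff_pow_eq_one.1 ?_
      rw [hμ, hs, hd', hn2]
      refine Dvd.intro_left (p ^ e) ?_
      have h1 : 1 ≤ p ^ d := Nat.pow_pos (by omega)
      have h2 : 1 ≤ p ^ (2 * d) := Nat.pow_pos (by omega)
      zify [h1, h2]
      ring
    rw [hlam12, hνi, hνj, ← pow_add, ← pow_mul]
    rcases hshift with e | e
    · rw [e, add_comm (p ^ (j + d))]; exact hmul j
    · rw [e]; exact hmul i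
  constructor
  · by_contra hne
    obtain ⟨f, hf⟩ := exists_hom_ne_zero (F := F) hLp (sub_ne_zero.2 hne)
    obtain ⟨lam, hlam⟩ : ∃ lam : Fˣ, proj lam T f (T^[s] (B a b) - B a b) ≠ 0 := by
      by_contra h
      push Not at h
      have h1 := sum_proj T f (T^[s] (B a b) - B a b)
      rw [sum_eq_zero fun l _ => h l, zero_eq_neg] at h1
      exact hf h1
    have hmap := proj_map lam T hT f
    have hit : ∀ k x, proj lam T f (T^[k] x) = (lam : F) ^ k * proj lam T f x := by
      intro k
      induction k with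
      | zero => simp
      | succ k ih => intro x; rw [Function.iterate_succ_apply', hmap, ih, pow_succ', mul_assoc]
    rw [map_sub, hit] at hlam
    by_cases h0 : proj lam T f (B a b) = 0
    · simp [h0] at hlam
    · rw [(key _ _ hmap ⟨a, b, h0⟩).1, one_mul, sub_self] at hlam
      exact hlam rfl
  · intro hne
    obtain ⟨f, hf⟩ := exists_hom_ne_zero (F := F) hLp hne
    obtain ⟨lam, hlam⟩ : ∃ lam : Fˣ, proj lam T f (B a b) ≠ 0 := by
      by_contra h
      push Not at h
      have h1 := sum_proj T f (B a b)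
      rw [sum_eq_zero fun l _ => h l, zero_eq_neg] at h1
      exact hf h1
    exact (key _ _ (proj_map lam T hT f) ⟨a, b, hlam⟩).2

/-- No non-zero equivariant map to a small group. -/
theorem eq_zero_of_equivariant [Finite L] {m : ℕ} (hcard : Fintype.card F = p ^ n) (hnm : n = 2 * m)
    (hμ : orderOf μ = p ^ n - 1) (hLp : ∀ x : L, p • x = 0) (hL : Nat.card L < p ^ n)
    (T : L →+ L) (hT : ∀ x, T^[Fintype.card F - 1] x = x) (C : F →+ L)
    (hC : ∀ x, C (μ ^ (p ^ m - 1) * x) = T^[p ^ m - 1] (C x)) : C = 0 := by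
  classical
  have hp1 : 1 < p := (Fact.out : p.Prime).one_lt
  have hμ' : orderOf μ = Fintype.card F - 1 := hcard ▸ hμ
  have hμ0 : μ ≠ 0 := fun h => by
    rw [h, orderOf_zero F] at hμ'
    have := Fintype.one_lt_card (α := F)
    omega
  by_contra hne
  obtain ⟨x₀, hx₀⟩ : ∃ x, C x ≠ 0 := by
    by_contra h
    push Not at h
    exact hne (AddMonoidHom.ext h)
  obtain ⟨f, hf⟩ := exists_hom_ne_zero (F := F) hLp hx₀
  obtain ⟨lam, hlam⟩ : ∃ lam : Fˣ, proj lam T f (C x₀) ≠ 0 := by
    by_contra h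
    push Not at h
    have h1 := sum_proj T f (C x₀)
    rw [sum_eq_zero fun l _ => h l, zero_eq_neg] at h1
    exact hf h1
  set g := proj lam T f with hg
  have hit : ∀ k x, g (T^[k] x) = (lam : F) ^ k * g x := by
    intro k
    induction k with
    | zero => simp
    | succ k ih =>
      intro x
      rw [Function.iterate_succ_apply', proj_map lam T hT f, ih, pow_succ', mul_assoc]
  obtain ⟨d, hd0, hdn, hd⟩ := exists_pow_eq_self hcard hL T g
    (fun h => hlam (by simp [h])) (lam : F) (proj_map lam T hT f)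
  set s := p ^ m - 1 with hs
  set ω := μ ^ s with hω
  let mulμ : F →+ F := AddMonoidHom.mulLeft μ
  have hμ1 : μ ^ (Fintype.card F - 1) = 1 := by rw [← hμ', pow_orderOf_eq_one]
  have hmulT : ∀ x, mulμ^[Fintype.card F - 1] x = x := by
    intro x
    simp [mulμ, AddMonoidHom.coe_mulLeft, mul_left_iterate, hμ1]
  set u : F →+ F := g.comp C with hu
  obtain ⟨ν, hν⟩ : ∃ ν : Fˣ, proj ν mulμ u x₀ ≠ 0 := by
    by_contra h
    push Not at h
    have h1 := sum_proj mulμ u x₀
    rw [sum_eq_zero fun l _ => h l, zero_eq_neg] at h1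
    exact hlam h1
  obtain ⟨i, -, hνi⟩ := eigenvalue_eq hcard hμ (proj ν mulμ u)
    (fun h => hν (DFunLike.congr_fun h x₀)) (ν := (ν : F))
    (fun y => proj_map ν mulμ hmulT u y)
  have hu' : ∀ x, u (ω * x) = (lam : F) ^ s * u x := by
    intro x
    rw [hu, AddMonoidHom.comp_apply, AddMonoidHom.comp_apply, hC, hit]
  have hων : (lam : F) ^ s = ω ^ p ^ i := by
    have h1 : proj ν mulμ u (ω * x₀) = (ν : F) ^ s * proj ν mulμ u x₀ := by
      have hi' : ∀ k x, proj ν mulμ u (μ ^ k * x) = (ν : F) ^ k * proj ν mulμ u x := by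
        intro k
        induction k with
        | zero => simp
        | succ k ih =>
          intro x
          rw [pow_succ', mul_assoc, show μ * (μ ^ k * x) = mulμ (μ ^ k * x) from rfl,
            proj_map ν mulμ hmulT, ih, pow_succ', mul_assoc]
      exact hi' s x₀
    have h2 : proj ν mulμ u (ω * x₀) = (lam : F) ^ s * proj ν mulμ u x₀ := by
      simp only [proj_apply, mul_sum]
      refine sum_congr rfl fun k _ => ?_
      have e : mulμ^[k] (ω * x₀) = ω * mulμ^[k] x₀ := by
        simp [mulμ, AddMonoidHom.coe_mulLeft, mul_left_iterate, mul_left_comm]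
      rw [e, hu']
      ring
    rw [← mul_right_cancel₀ hν (h1.symm.trans h2), hνi, hω, ← pow_mul, ← pow_mul, mul_comm]
  have hωd : (ω ^ p ^ i) ^ p ^ d = ω ^ p ^ i := by
    rw [← hων, ← pow_mul, mul_comm s, pow_mul, hd]
  have hdiv : (p ^ m + 1) ∣ p ^ i * (p ^ d - 1) := by
    simp only [hω, ← pow_mul] at hωd
    replace hωd := hμ ▸ pow_eq_pow_modEq hμ0 hωd
    have h1 : (s * (p ^ i * p ^ d) : ℕ) ≡ s * p ^ i [MOD p ^ n - 1] := by
      have : Nat.ModEq (p ^ n - 1) (s * p ^ i * p ^ d) (s * p ^ i) := hωd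
      rwa [mul_assoc] at this
    rw [Nat.ModEq.comm, Nat.modEq_iff_dvd' (Nat.mul_le_mul_left _ (Nat.le_mul_of_pos_right _ (Nat.pow_pos (by omega))))] at h1
    have h2 : p ^ n - 1 = s * (p ^ m + 1) := by
      rw [hs, hnm, two_mul, pow_add]
      have h3 : 1 ≤ p ^ m := Nat.pow_pos (by omega)
      have h4 : 1 ≤ p ^ m * p ^ m := Nat.mul_pos h3 h3
      zify [h3, h4]
      ring
    rw [h2, ← Nat.mul_sub, Nat.mul_dvd_mul_iff_left] at h1
    · rwa [Nat.mul_sub, mul_one]
    · have : 1 < p ^ m := Nat.one_lt_pow (by omega) hp1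
      omega
  have hcop : Nat.Coprime (p ^ m + 1) (p ^ i) := by
    refine Nat.Coprime.pow_right i (((Fact.out : p.Prime).coprime_iff_not_dvd.2 fun hd' => ?_).symm)
    have h1 : p ∣ p ^ m := dvd_pow_self p (by omega)
    have := (Nat.dvd_add_right h1).1 hd'
    exact (Fact.out : p.Prime).not_dvd_one this
  have h5 := hcop.dvd_of_dvd_mul_left hdiv
  have h6 : 1 < p ^ d := Nat.one_lt_pow (by omega) hp1
  rcases le_or_gt d m with hdm | hdm
  · have := Nat.le_of_dvd (by omega) h5
    have := Nat.pow_le_pow_right (by omega : 0 < p) hdm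
    omega
  · obtain ⟨r, rfl⟩ : ∃ r, d = m + r := ⟨d - m, by omega⟩
    have h7 : (p ^ m + 1) ∣ p ^ r * (p ^ m + 1) - (p ^ (m + r) - 1) := Nat.dvd_sub (Dvd.intro_left _ rfl) h5
    have h8 : p ^ r * (p ^ m + 1) - (p ^ (m + r) - 1) = p ^ r + 1 := by
      rw [pow_add]
      have h9 : 1 ≤ p ^ m * p ^ r := Nat.mul_pos (Nat.pow_pos (by omega)) (Nat.pow_pos (by omega))
      rw [mul_add, mul_one, mul_comm (p ^ r) (p ^ m)]
      omega
    rw [h8] at h7
    have := Nat.le_of_dvd (by omega) h7
    have h10 : p ^ r < p ^ m := Nat.pow_lt_pow_right hp1 (by omega)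
    omega

end Cfsg.Agent.SeenOnce
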