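import Mathlib

/-!
# A commutative transitive group of additive automorphisms is a multiplicative group of a field
-/

set_option autoImplicit false
set_option linter.style.haveILetI false

namespace Cfsg.Agent.SeenOnce

universe u v

/-- A commuting family of endomorphisms, transitive on the non-zero vectors, makes the group a field. -/
theorem exists_field {H : Type v} [Group H] {V : Type u} [AddCommGroup V] [Finite V] [Nontrivial V]
    (ρ : H →* AddMonoid.End V) (hcomm : ∀ a b, ρ a * ρ b = ρ b * ρ a)
    (htrans : ∀ v w : V, v ≠ 0 → w ≠ 0 → ∃ a, ρ a v = w) :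
    ∃ (F : Type u) (_ : Field F) (_ : Fintype F) (e : V ≃+ F) (t : H) (μ : F),
      orderOf μ = Nat.card V - 1 ∧ ∀ v, e (ρ t v) = μ * e v := by
  classical
  haveI := Fintype.ofFinite V
  haveI : Finite (AddMonoid.End V) := Finite.of_injective _ DFunLike.coe_injective
  have hc : ∀ x ∈ Set.range ρ, ∀ y ∈ Set.range ρ, x * y = y * x := by
    rintro _ ⟨a, rfl⟩ _ ⟨b, rfl⟩
    exact hcomm a b
  let R := Subring.closure (Set.range ρ)
  letI : CommRing R := Subring.closureCommRingOfComm hc
  have hmem : ∀ a, ρ a ∈ R := fun a => Subring.subset_closure ⟨a, rfl⟩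
  obtain ⟨v₀, hv₀⟩ := exists_ne (0 : V)
  have hinj : ∀ r : R, ∀ v : V, v ≠ 0 → (r : AddMonoid.End V) v = 0 → r = 0 := by
    intro r v hv hrv
    apply Subtype.ext
    apply AddMonoidHom.ext
    intro w
    rcases eq_or_ne w 0 with rfl | hw
    · exact (map_zero _).trans (map_zero _).symm
    obtain ⟨a, rfl⟩ := htrans v w hv hw
    have h1 : (r : AddMonoid.End V) * ρ a = ρ a * r :=
      congrArg Subtype.val (mul_comm r ⟨ρ a, hmem a⟩)
    have h2 := DFunLike.congr_fun h1 v
    exact (h2.trans ((congrArg (ρ a) hrv).trans (map_zero _))).trans rfl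
  haveI : Nontrivial R := ⟨⟨0, 1, fun h => hv₀ (by
    have := DFunLike.congr_fun (congrArg Subtype.val h) v₀
    simpa using this.symm)⟩⟩
  haveI : NoZeroDivisors R := by
    refine ⟨fun {a b} hab => ?_⟩
    by_cases hb : (b : AddMonoid.End V) v₀ = 0
    · exact Or.inr (hinj b v₀ hv₀ hb)
    · exact Or.inl (hinj a _ hb (DFunLike.congr_fun (congrArg Subtype.val hab) v₀))
  haveI : IsDomain R := NoZeroDivisors.to_isDomain R
  letI : Fintype R := Fintype.ofFinite R
  letI : Field R := Fintype.fieldOfDomain R
  let ev : R →+ V :=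
    AddMonoidHom.mk' (fun r => (r : AddMonoid.End V) v₀) fun r s => rfl
  have hev : Function.Bijective ev := by
    constructor
    · rw [injective_iff_map_eq_zero]
      exact fun r hr => hinj r v₀ hv₀ hr
    · intro w
      rcases eq_or_ne w 0 with rfl | hw
      · exact ⟨0, map_zero ev⟩
      · obtain ⟨a, ha⟩ := htrans v₀ w hv₀ hw
        exact ⟨⟨ρ a, hmem a⟩, ha⟩
  let e := (AddEquiv.ofBijective ev hev).symm
  let f : H →* R := { toFun := fun a => ⟨ρ a, hmem a⟩
                      map_one' := Subtype.ext (map_one ρ)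
                      map_mul' := fun a b => Subtype.ext (map_mul ρ a b) }
  have he : ∀ a v, e (ρ a v) = f a * e v := by
    intro a v
    apply e.symm.injective
    rw [e.symm_apply_apply]
    show ρ a v = (ρ a) (ev (e v))
    exact congrArg (ρ a) (e.symm_apply_apply v).symm
  obtain ⟨g, hg⟩ := IsCyclic.exists_generator (α := Rˣ)
  obtain ⟨t, ht⟩ := htrans v₀ (ev g) hv₀ (by
    rw [← map_zero ev]
    exact fun h => g.ne_zero (hev.1 h))
  refine ⟨R, inferInstance, inferInstance, e, t, (g : R), ?_, fun v => ?_⟩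
  · rw [orderOf_units, orderOf_eq_card_of_forall_mem_zpowers hg, Nat.card_units,
      Nat.card_congr (Equiv.ofBijective ev hev)]
  · rw [he, show f t = (g : R) from hev.1 ht]

end Cfsg.Agent.SeenOnce
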